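import Mathlib

/-! McLaughlin's theorem on groups generated by full transvection groups: the geometry,
linear case. -/

namespace Cfsg.Agent.Root

open Module

variable {k V : Type*} [Field k] [AddCommGroup V] [Module k V]

/-- The axioms for the set of centre-axis pairs of the transvections in a group. -/
structure Mc (T : V → Dual k V → Prop) : Prop where
  inc : ∀ {u φ}, T u φ → φ u = 0
  zl : ∀ φ, T 0 φ
  zr : ∀ u, T u 0
  sl : ∀ {u φ} (c : k), T u φ → T (c • u) φ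
  sr : ∀ {u φ} (c : k), T u φ → T u (c • φ)
  al : ∀ {u v φ}, T u φ → T v φ → T (u + v) φ
  ar : ∀ {u φ ψ}, T u φ → T u ψ → T u (φ + ψ)
  cj : ∀ {u φ v ψ}, T u φ → T v ψ → T (u + ψ u • v) (φ - φ v • ψ)
  opp : ∀ {u φ}, T u φ → u ≠ 0 → φ ≠ 0 → ∃ v ψ, T v ψ ∧ φ v ≠ 0 ∧ ψ u ≠ 0

theorem dual_smul_of_ker {η θ : Dual k V} (h0 : θ ≠ 0) (h : ∀ x, θ x = 0 → η x = 0) :
    ∃ c : k, η = c • θ := by
  obtain ⟨y, hy⟩ := DFunLike.ne_iff.mp h0
  have hy' : θ y ≠ 0 := hy
  refine ⟨η y / θ y, LinearMap.ext fun x => ?_⟩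
  have := h (x - (θ x / θ y) • y) (by simp; field_simp; ring)
  simp only [map_sub, map_smul, smul_eq_mul] at this
  simp only [LinearMap.smul_apply, smul_eq_mul]
  field_simp at this ⊢
  linear_combination this

theorem exists_dual_of_not_smul {x y : V} (h : ∀ c : k, x ≠ c • y) :
    ∃ η : Dual k V, η y = 0 ∧ η x ≠ 0 := by
  have : x ∉ Submodule.span k {y} := by
    rw [Submodule.mem_span_singleton]
    rintro ⟨c, hc⟩; exact h c hc.symm
  obtain ⟨f, h1, h2⟩ := Submodule.exists_dual_map_eq_bot_of_notMem this inferInstance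
  refine ⟨f, ?_, h1⟩
  have : f y ∈ (Submodule.span k {y}).map f :=
    Submodule.mem_map_of_mem (Submodule.mem_span_singleton_self y)
  rwa [h2] at this

theorem exists_dual_ne {x : V} (h : x ≠ 0) : ∃ η : Dual k V, η x ≠ 0 := by
  obtain ⟨η, -, h2⟩ := exists_dual_of_not_smul (k := k) (x := x) (y := 0) (by simpa using h)
  exact ⟨η, h2⟩

/-- A projection all of whose incident pairs occur. -/
structure FullP (T : V → Dual k V → Prop) (π : V →ₗ[k] V) : Prop where
  idem : ∀ x, π (π x) = π x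
  full : ∀ x η, π x = x → (∀ y, η (π y) = η y) → η x = 0 → T x η

namespace Mc

variable {T : V → Dual k V → Prop} (h : Mc T)
include h

theorem subl {u v : V} {φ : Dual k V} (h1 : T u φ) (h2 : T v φ) : T (u - v) φ := by
  have := h.al h1 (h.sl (-1) h2)
  rwa [neg_one_smul, ← sub_eq_add_neg] at this

theorem subr {u : V} {φ ψ : Dual k V} (h1 : T u φ) (h2 : T u ψ) : T u (φ - ψ) := by
  have := h.ar h1 (h.sr (-1) h2)
  convert this using 1
  ext y; simp [sub_eq_add_neg]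

theorem of_sl {u : V} {φ : Dual k V} {c : k} (hc : c ≠ 0) (h1 : T (c • u) φ) : T u φ := by
  have := h.sl c⁻¹ h1
  rwa [smul_smul, inv_mul_cancel₀ hc, one_smul] at this

theorem cjc {u v : V} {φ ψ : Dual k V} (h1 : T u φ) (h2 : T v ψ) (c : k) :
    T (u + (c * ψ u) • v) (φ - (c * φ v) • ψ) := by
  have := h.cj h1 (h.sl c h2)
  rwa [smul_smul, map_smul, smul_eq_mul, mul_comm (ψ u)] at this

theorem rule {u v : V} {φ ψ : Dual k V} (h1 : T u φ) (h2 : T v ψ) (e1 : ψ u ≠ 0) (e2 : φ v = 0) :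
    T v φ := by
  have := h.subl (h.cj h1 h2) (by rw [e2, zero_smul, sub_zero]; exact h1)
  rw [e2, zero_smul, sub_zero, add_sub_cancel_left] at this
  exact h.of_sl e1 this

variable {π : V →ₗ[k] V}

theorem ext_full (hπ : FullP T π) {v : V} {ζ : Dual k V} (hv : π v = 0) (hζ : ∀ y, ζ (π y) = 0)
    (e : ζ v = 1) (h1 : ∀ η : Dual k V, (∀ y, η (π y) = η y) → T v η)
    (h2 : ∀ x, π x = x → T x ζ) : FullP T (π + ζ.smulRight v) := by
  refine ⟨fun x => by simp [hπ.idem, hv, hζ, e], fun x η hx hη e0 => ?_⟩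
  simp only [LinearMap.add_apply, LinearMap.smulRight_apply, map_add, map_smul,
    smul_eq_mul] at hx hη
  let η₀ : Dual k V := η ∘ₗ π
  have hη0 : ∀ y, η₀ (π y) = η₀ y := fun y => by simp [η₀, hπ.idem]
  have eη : η = η₀ + η v • ζ := LinearMap.ext fun y => by
    rw [← hη y]; simp [η₀, mul_comm]
  by_cases z : η₀ = 0
  · by_cases b : η v = 0
    · rw [eη, z, b]; simpa using h.zr x
    · have : ζ x = 0 := by
        rw [eη, z] at e0
        simpa [b] using e0
      rw [this, zero_smul, add_zero] at hx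
      rw [eη, z, zero_add]
      exact h.sr _ (h2 x hx)
  · obtain ⟨y₀, hy₀⟩ := DFunLike.ne_iff.mp z
    have hy₀' : η₀ y₀ ≠ 0 := hy₀
    let y := (η₀ y₀)⁻¹ • π y₀
    have y1 : η₀ y = 1 := by simp only [y, map_smul, hη0, smul_eq_mul]; exact inv_mul_cancel₀ hy₀'
    have y2 : π y = y := by simp [y, hπ.idem]
    have y3 : ζ y = 0 := by rw [← y2, hζ]
    have t1 : T (π x + (η v * ζ x) • y) η₀ := by
      apply hπ.full _ _ (by simp [hπ.idem, y2]) hη0
      rw [map_add, map_smul, y1, hη0, smul_eq_mul, mul_one, ← e0, ← hη x]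
      simp [η₀, mul_comm]
    have t2 := h.al t1 (h.sl (ζ x) (h1 η₀ hη0))
    have t3 := h.cjc t2 (h2 y y2) (-η v)
    rw [y1] at t3
    convert t3 using 1
    · simp only [map_add, map_smul, hζ, y3, e, smul_eq_mul]
      nth_rewrite 1 [← hx]
      module
    · nth_rewrite 1 [eη]
      module

theorem all_axes (hπ : FullP T π) {v : V} {η : Dual k V} (hv : π v = 0) (h1 : T v η)
    (h0 : η ≠ 0) (hη : ∀ y, η (π y) = η y) (θ : Dual k V) (hθ : ∀ y, θ (π y) = θ y) : T v θ := by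
  by_cases z : θ = 0
  · rw [z]; exact h.zr v
  by_cases e : ∀ x, θ x = 0 → η x = 0
  · obtain ⟨c, hc⟩ := dual_smul_of_ker z e
    have c0 : c ≠ 0 := by rintro rfl; exact h0 (by simpa using hc)
    have := h.sr c⁻¹ h1
    rwa [hc, smul_smul, inv_mul_cancel₀ c0, one_smul] at this
  · push Not at e
    obtain ⟨x, e1, e2⟩ := e
    exact h.rule (hπ.full (π x) θ (hπ.idem x) hθ (by rw [hθ, e1])) h1 (by rwa [hη])
      (by rw [← hθ, hv, map_zero])

theorem all_centres (hπ : FullP T π) {x : V} {ζ : Dual k V} (hζ : ∀ y, ζ (π y) = 0) (h1 : T x ζ)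
    (h0 : x ≠ 0) (hx : π x = x) (z : V) (hz : π z = z) : T z ζ := by
  by_cases z0 : z = 0
  · rw [z0]; exact h.zl ζ
  by_cases e : ∀ c : k, x ≠ c • z
  · obtain ⟨η, e1, e2⟩ := exists_dual_of_not_smul e
    refine h.rule h1 (hπ.full z (η ∘ₗ π) hz (fun y => by simp [hπ.idem]) (by simp [hz, e1]))
      (by simpa [hx] using e2) (by rw [← hz, hζ])
  · push Not at e
    obtain ⟨c, hc⟩ := e
    have c0 : c ≠ 0 := by rintro rfl; exact h0 (by simpa using hc)
    exact h.of_sl c0 (hc ▸ h1)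

omit h in
theorem r3_dual [FiniteDimensional k V] (hi : ∀ x, π (π x) = π x)
    (h3 : 3 ≤ finrank k (LinearMap.range π)) (a b : V) :
    ∃ η : Dual k V, η ≠ 0 ∧ (∀ y, η (π y) = η y) ∧ η a = 0 ∧ η b = 0 := by
  let f : Dual k (LinearMap.range π) →ₗ[k] k × k :=
    { toFun := fun χ => (χ (π.rangeRestrict a), χ (π.rangeRestrict b))
      map_add' := fun a b => by simp
      map_smul' := fun c a => by simp }
  have := LinearMap.ker_ne_bot_of_finrank_lt (f := f) (by simp; omega)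
  obtain ⟨χ, h1, h2⟩ := Submodule.exists_mem_ne_zero_of_ne_bot this
  have h4 : (χ (π.rangeRestrict a), χ (π.rangeRestrict b)) = 0 := h1
  refine ⟨χ ∘ₗ π.rangeRestrict, fun e => h2 ?_, fun y => ?_, congrArg Prod.fst h4,
    congrArg Prod.snd h4⟩
  · ext ⟨_, y, rfl⟩
    exact DFunLike.congr_fun e y
  · simp only [LinearMap.comp_apply]
    congr 1
    exact Subtype.ext (hi y)

omit h in
theorem r3_vec [FiniteDimensional k V] (hi : ∀ x, π (π x) = π x)
    (h3 : 3 ≤ finrank k (LinearMap.range π)) (η θ : Dual k V) :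
    ∃ x : V, x ≠ 0 ∧ π x = x ∧ η x = 0 ∧ θ x = 0 := by
  let f : LinearMap.range π →ₗ[k] k × k :=
    { toFun := fun x => (η x, θ x)
      map_add' := fun a b => by simp
      map_smul' := fun c a => by simp }
  have := LinearMap.ker_ne_bot_of_finrank_lt (f := f) (by simp; omega)
  obtain ⟨⟨_, y, rfl⟩, h1, h2⟩ := Submodule.exists_mem_ne_zero_of_ne_bot this
  have h4 : (η (π y), θ (π y)) = 0 := h1
  exact ⟨π y, fun e => h2 (Subtype.ext e), hi y, congrArg Prod.fst h4, congrArg Prod.snd h4⟩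

variable [FiniteDimensional k V]

theorem step_vec (hπ : FullP T π) (h3 : 3 ≤ finrank k (LinearMap.range π)) {v : V} {ψ : Dual k V}
    (h1 : T v ψ) {y : V} (hy : ψ (π y) ≠ 0) (θ : Dual k V) (hθ : ∀ y, θ (π y) = θ y) :
    T (v - π v) θ := by
  obtain ⟨η, h0, hη, e1, e2⟩ := r3_dual hπ.idem h3 v (π y)
  have t1 := h.rule (hπ.full _ η (hπ.idem y) hη e2) h1 hy e1
  have t2 := hπ.full _ η (hπ.idem v) hη (by rw [hη, e1])
  exact h.all_axes hπ (by simp [hπ.idem]) (h.subl t1 t2) h0 hη θ hθ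

theorem step_dual (hπ : FullP T π) (h3 : 3 ≤ finrank k (LinearMap.range π)) {v : V}
    {ψ : Dual k V} (h1 : T v ψ) (hv : π v ≠ 0) (z : V) (hz : π z = z) : T z (ψ - ψ ∘ₗ π) := by
  obtain ⟨η, hη⟩ := exists_dual_ne (k := k) hv
  obtain ⟨x, h0, hx, e1, e2⟩ := r3_vec hπ.idem h3 η ψ
  have t0 := hπ.full x (η ∘ₗ π) hx (fun y => by simp [hπ.idem]) (by simp [hx, e1])
  have t1 := h.rule h1 t0 (by simpa using hη) e2
  have t2 := hπ.full x (ψ ∘ₗ π) hx (fun y => by simp [hπ.idem]) (by simp [hx, e2])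
  exact h.all_centres hπ (fun y => by simp [hπ.idem]) (h.subr t1 t2) h0 hx z hz

omit h in
theorem rank_lt (hi : ∀ x, π (π x) = π x) {v : V} {ζ : Dual k V} (hv : π v = 0)
    (hζ : ∀ y, ζ (π y) = 0) (e : ζ v = 1) :
    finrank k (LinearMap.range π) < finrank k (LinearMap.range (π + ζ.smulRight v)) := by
  apply Submodule.finrank_lt_finrank_of_lt
  refine lt_of_le_of_ne ?_ fun e2 => ?_
  · rintro _ ⟨y, rfl⟩
    exact ⟨π y, by simp [hi, hζ]⟩
  · have : v ∈ LinearMap.range π := by rw [e2]; exact ⟨v, by simp [hv, e]⟩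
    obtain ⟨y, rfl⟩ := this
    rw [hζ] at e
    exact zero_ne_one e

omit [FiniteDimensional k V] in
theorem full_two {u w : V} {φ χ : Dual k V} (h1 : T u φ) (h2 : T w χ) (e1 : φ w = 1)
    (e2 : χ u = 1) : FullP T (χ.smulRight u + φ.smulRight w) := by
  have i1 := h.inc h1
  have i2 := h.inc h2
  refine ⟨fun x => by simp [i1, i2, e1, e2], fun x η hx hη e0 => ?_⟩
  simp only [LinearMap.add_apply, LinearMap.smulRight_apply, map_add, map_smul,
    smul_eq_mul] at hx hη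
  have eη : η = η u • χ + η w • φ := LinearMap.ext fun y => by
    rw [← hη y]; simp [mul_comm]
  rw [← hη] at e0
  by_cases a : χ x = 0
  · by_cases b : φ x = 0
    · rw [← hx, a, b]; simpa using h.zl η
    · have : η w = 0 := by simpa [a, b] using e0
      rw [← hx, eη, a, this]
      simpa using h.sr _ (h.sl _ h2)
  · have t := h.sr (η w) (h.sl (χ x) (h.cjc h1 h2 (φ x / χ x)))
    rw [e1, e2] at t
    convert t using 1
    · nth_rewrite 1 [← hx]
      rw [smul_add, smul_smul]; congr 2; field_simp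
    · nth_rewrite 1 [eη]
      have : η u = -(η w * (φ x / χ x)) := by field_simp; linear_combination e0
      rw [this]; module

theorem exists_full_three {u v : V} {φ ψ : Dual k V} (h1 : T u φ) (h2 : T v ψ) (hu : u ≠ 0)
    (hψ : ψ ≠ 0) (e1 : φ v ≠ 0) (e2 : ψ u = 0) :
    ∃ π : V →ₗ[k] V, FullP T π ∧ 3 ≤ finrank k (LinearMap.range π) ∧ π u = u ∧
      ∀ y, ψ (π y) = ψ y := by
  have t0 := h.rule h2 h1 e1 e2
  obtain ⟨w₀, χ₀, t1, o1, o2⟩ := h.opp t0 hu hψ
  have t2 := h.sr (χ₀ u)⁻¹ (h.sl (ψ w₀)⁻¹ t1)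
  set w := (ψ w₀)⁻¹ • w₀
  set χ := (χ₀ u)⁻¹ • χ₀
  have p1 : ψ w = 1 := by simp [w, o1]
  have p2 : χ u = 1 := by simp [χ, o2]
  have p3 := h.inc t2
  have p4 := h.inc h1
  have p5 := h.inc h2
  have F := h.full_two t0 t2 p1 p2
  set π := χ.smulRight u + ψ.smulRight w with hπ
  have πa : ∀ y, π y = χ y • u + ψ y • w := fun y => rfl
  have πu : π u = u := by simp [πa, p2, e2]
  have πψ : ∀ y, ψ (π y) = ψ y := fun y => by simp [πa, e2, p1]
  let ζ : Dual k V := (φ v)⁻¹ • (φ - φ w • ψ)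
  have ζπ : ∀ y, ζ (π y) = 0 := fun y => by simp [ζ, πa, p4, e2, p1, mul_comm]
  have v0 : π (v - π v) = 0 := by simp [F.idem]
  have ζv : ζ (v - π v) = 1 := by rw [map_sub, ζπ]; simp [ζ, p5, e1]
  have a1 : T (v - π v) ψ := by
    rw [πa, p5, zero_smul, add_zero]; exact h.subl h2 (h.sl _ t0)
  have a2 : T u ζ := h.sr _ (h.subr h1 (h.sr _ t0))
  refine ⟨_, h.ext_full F v0 ζπ ζv (h.all_axes F v0 a1 hψ πψ) (h.all_centres F ζπ a2 hu πu), ?_,
    ?_, ?_⟩
  · have l1 := rank_lt F.idem v0 ζπ ζv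
    have l2 : finrank k (LinearMap.range (χ.smulRight u)) < finrank k (LinearMap.range π) :=
      rank_lt (π := χ.smulRight u) (fun y => by simp [p2]) (by simp [p3]) (fun y => by simp [e2]) p1
    have l3 : finrank k (LinearMap.range (0 : V →ₗ[k] V)) <
        finrank k (LinearMap.range (0 + χ.smulRight u)) :=
      rank_lt (π := 0) (fun y => by simp) (by simp) (fun y => by simp) p2
    rw [zero_add] at l3
    omega
  · have : ζ u = 0 := by rw [← πu, ζπ]
    simp [πu, this]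
  · intro y
    have : ψ (v - π v) = 0 := h.inc a1
    simp only [LinearMap.add_apply, LinearMap.smulRight_apply, map_add, map_smul, πψ, this]
    simp

theorem exists_max_full {u v : V} {φ ψ : Dual k V} (h1 : T u φ) (h2 : T v ψ) (hu : u ≠ 0)
    (hψ : ψ ≠ 0) (e1 : φ v ≠ 0) (e2 : ψ u = 0) :
    ∃ π : V →ₗ[k] V, FullP T π ∧ 3 ≤ finrank k (LinearMap.range π) ∧ π u = u ∧
      (∀ y, ψ (π y) = ψ y) ∧ ∀ w χ, T w χ → w ≠ 0 → χ ≠ 0 → (π w ≠ 0 ∨ ∃ y, χ (π y) ≠ 0) →
        π w = w ∧ ∀ y, χ (π y) = χ y := by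
  let S : Set (V →ₗ[k] V) := {π | FullP T π ∧ 3 ≤ finrank k (LinearMap.range π) ∧ π u = u ∧
      ∀ y, ψ (π y) = ψ y}
  have hS : S.Nonempty := h.exists_full_three h1 h2 hu hψ e1 e2
  obtain ⟨π, ⟨F, r3, πu, πψ⟩, hmax'⟩ := Set.Finite.exists_maximalFor'
    (fun π : V →ₗ[k] V => finrank k (LinearMap.range π)) S
    (Set.Finite.subset (Set.finite_Iic (finrank k V)) (by
      rintro _ ⟨π, -, rfl⟩; exact Submodule.finrank_le _)) hS
  have hmax : ∀ σ ∈ S, finrank k (LinearMap.range σ) ≤ finrank k (LinearMap.range π) :=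
    fun σ hσ => by
      by_contra hn
      exact hn (hmax' hσ (le_of_not_ge hn))
  have A : ∀ w χ, T w χ → (∃ y, χ (π y) ≠ 0) → π w = w := by
    rintro w χ t ⟨y, hy⟩
    by_contra hn
    have w0 : w - π w ≠ 0 := fun e => hn (sub_eq_zero.mp e).symm
    have st := h.step_vec F r3 t hy
    have θπ : ∀ z, (χ ∘ₗ π) (π z) = (χ ∘ₗ π) z := fun z => by simp [F.idem]
    obtain ⟨z, ζ, t2, o1, o2⟩ := h.opp (st _ θπ) w0 (fun e => hy (DFunLike.congr_fun e y))
    have z0 : π z ≠ 0 := fun e => o1 (by simp [e])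
    have sd := h.step_dual F r3 t2 z0
    have v0 : π (w - π w) = 0 := by simp [F.idem]
    let ζ' : Dual k V := (ζ (w - π w))⁻¹ • (ζ - ζ ∘ₗ π)
    have ζπ : ∀ y, ζ' (π y) = 0 := fun y => by simp [ζ', F.idem]
    have ζv : ζ' (w - π w) = 1 := by
      simp only [ζ', LinearMap.smul_apply, LinearMap.sub_apply, LinearMap.comp_apply, v0, map_zero,
        sub_zero, smul_eq_mul]
      exact inv_mul_cancel₀ o2
    have l := rank_lt F.idem v0 ζπ ζv
    have m : π + ζ'.smulRight (w - π w) ∈ S := by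
      refine ⟨h.ext_full F v0 ζπ ζv st fun x hx => h.sr _ (sd x hx), by omega, ?_, fun y => ?_⟩
      · have : ζ' u = 0 := by rw [← πu, ζπ]
        simp [πu, this]
      · have : ψ (w - π w) = 0 := by rw [← πψ, v0, map_zero]
        simp only [LinearMap.add_apply, LinearMap.smulRight_apply, map_add, map_smul, πψ, this]
        simp
    exact absurd (hmax _ m) (not_le.mpr l)
  have B : ∀ w χ, T w χ → π w ≠ 0 → ∀ y, χ (π y) = χ y := by
    intro w χ t hw
    by_contra hn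
    have χ0 : χ - χ ∘ₗ π ≠ 0 := fun e => hn fun y => by
      have := DFunLike.congr_fun e y
      simp only [LinearMap.sub_apply, LinearMap.comp_apply, LinearMap.zero_apply] at this
      exact (sub_eq_zero.mp this).symm
    obtain ⟨z, ζ, t2, o1, o2⟩ := h.opp (h.step_dual F r3 t hw _ (F.idem w)) hw χ0
    apply o1
    have := A z ζ t2 ⟨w, o2⟩
    simp [this]
  refine ⟨π, F, r3, πu, πψ, fun w χ t w0 χ0 hh => ?_⟩
  rcases hh with hh | hh
  · have b := B w χ t hh
    obtain ⟨y, hy⟩ := DFunLike.ne_iff.mp χ0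
    exact ⟨A w χ t ⟨y, by rw [b]; exact hy⟩, b⟩
  · have a := A w χ t hh
    exact ⟨a, B w χ t (by rwa [a])⟩

end Mc

end Cfsg.Agent.Root
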