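import Mathlib
import Cfsg.Agent.Root.Mc1

/-! McLaughlin's theorem: components, and the symplectic case. -/

namespace Cfsg.Agent.Root

open Module

variable {k V : Type*} [Field k] [AddCommGroup V] [Module k V]

/-- A connected component of the non-commuting graph (possibly empty). -/
structure Cp (T C : V → Dual k V → Prop) : Prop where
  mc : Mc T
  t : ∀ {u φ}, C u φ → T u φ
  n1 : ∀ {u φ}, C u φ → u ≠ 0
  n2 : ∀ {u φ}, C u φ → φ ≠ 0
  cl : ∀ {u φ v ψ}, C u φ → T v ψ → v ≠ 0 → ψ ≠ 0 → (φ v ≠ 0 ∨ ψ u ≠ 0) → C v ψ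
  ind : ∀ (P : V → Dual k V → Prop) {u φ}, C u φ → P u φ →
    (∀ v ψ w χ, C v ψ → C w χ → (ψ w ≠ 0 ∨ χ v ≠ 0) → P v ψ → P w χ) → ∀ {v ψ}, C v ψ → P v ψ

/-- the span of the centres -/
def UC (C : V → Dual k V → Prop) : Submodule k V := Submodule.span k {u | ∃ φ, C u φ}

/-- the intersection of the axes -/
def WC (C : V → Dual k V → Prop) : Submodule k V where
  carrier := {x | ∀ u φ, C u φ → φ x = 0}
  zero_mem' := fun _ φ _ => map_zero φ
  add_mem' := fun ha hb u φ h => by rw [map_add, ha u φ h, hb u φ h, add_zero]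
  smul_mem' := fun c _ ha u φ h => by rw [map_smul, ha u φ h, smul_zero]

theorem mem_UC {C : V → Dual k V → Prop} {u : V} {φ : Dual k V} (h : C u φ) : u ∈ UC C :=
  Submodule.subset_span ⟨φ, h⟩

theorem exists_ne_two {A : Submodule k V} {f g : Dual k V} {a b : V} (ha : a ∈ A) (hb : b ∈ A)
    (h1 : f a ≠ 0) (h2 : g b ≠ 0) : ∃ x ∈ A, f x ≠ 0 ∧ g x ≠ 0 := by
  by_cases e1 : g a = 0
  · by_cases e2 : f b = 0
    · exact ⟨a + b, add_mem ha hb, by simpa [e2] using h1, by simpa [e1] using h2⟩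
    · exact ⟨b, hb, e2, h2⟩
  · exact ⟨a, ha, h1, e1⟩

theorem exists_ne_three (two : (2 : k) ≠ 0) {A : Submodule k V} {f g l : Dual k V} {a b c : V}
    (ha : a ∈ A) (hb : b ∈ A) (hc : c ∈ A) (h1 : f a ≠ 0) (h2 : g b ≠ 0) (h3 : l c ≠ 0) :
    ∃ x ∈ A, f x ≠ 0 ∧ g x ≠ 0 ∧ l x ≠ 0 := by
  obtain ⟨w, hw, f1, g1⟩ := exists_ne_two ha hb h1 h2
  by_cases e : l w = 0
  · by_contra hn
    push Not at hn
    have a1 := hn (w + c) (add_mem hw hc)
    have a2 := hn (w - c) (sub_mem hw hc)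
    have a3 := hn c hc
    simp only [map_add, map_sub, e, zero_add, zero_sub, neg_eq_zero] at a1 a2
    have b1 : f w + f c = 0 ∨ g w + g c = 0 := by tauto
    have b2 : f w - f c = 0 ∨ g w - g c = 0 := by tauto
    have b3 : f c = 0 ∨ g c = 0 := by tauto
    rcases b1 with b1 | b1 <;> rcases b2 with b2 | b2 <;> rcases b3 with b3 | b3
    all_goals first
      | exact f1 (by linear_combination b1 - b3)
      | exact f1 (by linear_combination b2 + b3)
      | exact g1 (by linear_combination b1 - b3)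
      | exact g1 (by linear_combination b2 + b3)
      | exact f1 ((mul_eq_zero.mp (show 2 * f w = 0 by linear_combination b1 + b2)).resolve_left two)
      | exact g1 ((mul_eq_zero.mp (show 2 * g w = 0 by linear_combination b1 + b2)).resolve_left two)
  · exact ⟨w, hw, f1, g1, e⟩

namespace Cp

variable {T C : V → Dual k V → Prop} (h : Cp T C)
include h

theorem inc {u : V} {φ : Dual k V} (h1 : C u φ) : φ u = 0 := h.mc.inc (h.t h1)

theorem opp {u : V} {φ : Dual k V} (h1 : C u φ) : ∃ v ψ, C v ψ ∧ φ v ≠ 0 ∧ ψ u ≠ 0 := by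
  obtain ⟨v, ψ, t, o1, o2⟩ := h.mc.opp (h.t h1) (h.n1 h1) (h.n2 h1)
  exact ⟨v, ψ, h.cl h1 t (by rintro rfl; simp at o1) (by rintro rfl; simp at o2) (Or.inl o1), o1, o2⟩

theorem same_centre {u : V} {φ ψ : Dual k V} (h1 : C u φ) (h2 : T u ψ) (h0 : ψ ≠ 0) : C u ψ := by
  obtain ⟨v, χ, c, -, o2⟩ := h.opp h1
  exact h.cl c h2 (h.n1 h1) h0 (Or.inl o2)

theorem same_axis {u v : V} {φ : Dual k V} (h1 : C u φ) (h2 : T v φ) (h0 : v ≠ 0) : C v φ := by
  obtain ⟨w, χ, c, o1, -⟩ := h.opp h1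
  exact h.cl c h2 h0 (h.n2 h1) (Or.inr o1)

theorem smul {u : V} {φ : Dual k V} (h1 : C u φ) {a b : k} (ha : a ≠ 0) (hb : b ≠ 0) :
    C (a • u) (b • φ) :=
  h.same_centre (h.same_axis h1 (h.mc.sl a (h.t h1)) (smul_ne_zero ha (h.n1 h1)))
    (h.mc.sr b (h.mc.sl a (h.t h1))) (smul_ne_zero hb (h.n2 h1))

theorem neg {u : V} {φ : Dual k V} (h1 : C u φ) : C (-u) (-φ) := by
  have := h.smul h1 (a := -1) (b := -1) (by simp) (by simp)
  convert this using 1
  · simp
  · ext; simp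

theorem eq_zero_of_UC {u : V} {φ ψ : Dual k V} (h1 : C u φ) (h2 : T u ψ)
    (h3 : ∀ x ∈ UC C, ψ x = 0) : ψ = 0 := by
  by_contra h0
  obtain ⟨v, χ, c, o1, -⟩ := h.opp (h.same_centre h1 h2 h0)
  exact o1 (h3 v (mem_UC c))

theorem cjc {u v : V} {φ ψ : Dual k V} (h1 : C u φ) (h2 : C v ψ) (c : k) :
    C (u + (c * ψ u) • v) (φ - (c * φ v) • ψ) := by
  have t := h.mc.cjc (h.t h1) (h.t h2) c
  have i2 := h.inc h2
  by_cases e1 : ψ u = 0
  · by_cases e2 : φ v = 0
    · simpa [e1, e2] using h1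
    · rw [e1, mul_zero, zero_smul, add_zero] at t ⊢
      exact h.same_centre h1 t (fun e => e2 (by simpa [i2] using DFunLike.congr_fun e v))
  · by_cases e2 : φ v = 0
    · rw [e2, mul_zero, zero_smul, sub_zero] at t ⊢
      exact h.same_axis h1 t (fun e => e1 (by simpa [i2] using congrArg ψ e))
    · exact h.cl h2 t (fun e => e1 (by simpa [i2] using congrArg ψ e))
        (fun e => e2 (by simpa [i2] using DFunLike.congr_fun e v)) (Or.inl (by simpa [i2] using e1))

/-- the linear case -/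
theorem lin_case [FiniteDimensional k V] {u v : V} {φ ψ : Dual k V} (h1 : C u φ) (h2 : C v ψ)
    (e1 : φ v ≠ 0) (e2 : ψ u = 0) : IsCompl (UC C) (WC C) ∧
      ∀ x ∈ UC C, ∀ η : Dual k V, (∀ y ∈ WC C, η y = 0) → η x = 0 → T x η := by
  obtain ⟨π, F, r3, πu, πψ, hm⟩ := h.mc.exists_max_full (h.t h1) (h.t h2) (h.n1 h1) (h.n2 h2) e1 e2
  have c0 : C u ψ := h.same_centre h1 (h.mc.rule (h.t h2) (h.t h1) e1 e2) (h.n2 h2)
  have In : ∀ {w χ}, C w χ → π w = w ∧ ∀ y, χ (π y) = χ y := by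
    intro w χ c
    refine h.ind (fun w χ => π w = w ∧ ∀ y, χ (π y) = χ y) c0 ⟨πu, πψ⟩ ?_ c
    rintro v ψ w χ - c2 o ⟨p1, p2⟩
    apply hm w χ (h.t c2) (h.n1 c2) (h.n2 c2)
    rcases o with o | o
    · left; intro e; apply o; rw [← p2, e, map_zero]
    · right; exact ⟨v, by rwa [p1]⟩
  have hU : ∀ x, x ∈ UC C ↔ π x = x := by
    intro x
    constructor
    · intro hx
      induction hx using Submodule.span_induction with
      | mem x hx => obtain ⟨φ, c⟩ := hx; exact (In c).1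
      | zero => simp
      | add x y _ _ a b => simp [a, b]
      | smul c x _ a => simp [a]
    · intro hx
      by_cases z : x = 0
      · rw [z]; exact zero_mem _
      obtain ⟨η, h0, hη, a1, a2⟩ := Mc.r3_dual F.idem r3 x u
      exact mem_UC (h.same_axis (h.same_centre c0 (F.full u η πu hη a2) h0) (F.full x η hx hη a1) z)
  have hW : ∀ x, x ∈ WC C ↔ π x = 0 := by
    intro x
    constructor
    · intro hx
      by_contra z
      obtain ⟨η, hη⟩ := exists_dual_ne (k := k) z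
      obtain ⟨y, y0, hy, a1, a2⟩ := Mc.r3_vec F.idem r3 η ψ
      have c1 := h.same_axis c0 (F.full y ψ hy πψ a2) y0
      have c2 := h.same_centre c1 (F.full y (η ∘ₗ π) hy (fun z => by simp [F.idem])
        (by simp [hy, a1])) (fun e => hη (DFunLike.congr_fun e x))
      exact hη (hx _ _ c2)
    · intro hx w χ c
      rw [← (In c).2, hx, map_zero]
  refine ⟨⟨?_, ?_⟩, fun x hx η hη e => F.full x η ((hU x).1 hx) (fun y => ?_) e⟩
  · rw [Submodule.disjoint_def]
    intro x a b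
    rw [← (hU x).1 a, (hW x).1 b]
  · rw [codisjoint_iff, eq_top_iff]
    intro x _
    have : x = π x + (x - π x) := by abel
    rw [this]
    exact Submodule.add_mem_sup ((hU _).2 (F.idem x)) ((hW _).2 (by simp [F.idem]))
  · have := hη (y - π y) ((hW _).2 (by simp [F.idem]))
    rw [map_sub] at this
    exact (sub_eq_zero.mp this).symm

section Sp

variable (D : ∀ {u φ v ψ}, C u φ → C v ψ → φ v = 0 → ψ u = 0)
include D

omit h in
theorem D' {u v : V} {φ ψ : Dual k V} (h1 : C u φ) (h2 : C v ψ) (e : φ v ≠ 0) : ψ u ≠ 0 :=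
  fun z => e (D h2 h1 z)

theorem line {u v : V} {φ ψ : Dual k V} (h1 : C u φ) (h2 : C v ψ) (e : φ v ≠ 0) (c : k) :
    ∃ χ, C (u + c • v) χ := by
  have e' := D' D h1 h2 e
  have := h.cjc h1 h2 (c / ψ u)
  rw [div_mul_cancel₀ _ e'] at this
  exact ⟨_, this⟩

theorem common {u v : V} {φ ψ : Dual k V} (h1 : C u φ) (h2 : C v ψ) :
    ∃ w χ, C w χ ∧ φ w ≠ 0 ∧ ψ w ≠ 0 := by
  refine h.ind (fun v ψ => ∃ w χ, C w χ ∧ φ w ≠ 0 ∧ ψ w ≠ 0) h1 ?_ ?_ h2
  · obtain ⟨w, χ, c, o, -⟩ := h.opp h1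
    exact ⟨w, χ, c, o, o⟩
  · rintro v ψ w χ c1 c2 o ⟨y, ξ, c3, a1, a2⟩
    have o' : χ v ≠ 0 := o.elim (D' D c1 c2) id
    by_cases b1 : χ y = 0
    · by_cases b2 : φ v = 0
      · obtain ⟨ζ, c4⟩ := h.line D c3 c1 (D' D c1 c3 a2) 1
        exact ⟨_, ζ, c4, by simpa [b2] using a1, by simpa [b1] using o'⟩
      · exact ⟨v, ψ, c1, b2, o'⟩
    · exact ⟨y, ξ, c3, a1, b1⟩

variable (two : (2 : k) ≠ 0)
  (hO : ∀ {u φ v ψ}, C u φ → C v ψ → (∀ x ∈ UC C, φ x = ψ x) → u + v ∈ WC C → u + v = 0)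
include two hO

theorem add_centre {u v : V} {φ ψ : Dual k V} (h1 : C u φ) (h2 : C v ψ) (h0 : u + v ≠ 0) :
    ∃ χ, C (u + v) χ := by
  by_cases e1 : φ v = 0
  swap
  · simpa using h.line D h1 h2 e1 1
  by_contra hn
  push Not at hn
  have cl1 : ∀ w χ, C w χ → χ u ≠ 0 → χ v ≠ 0 → χ (u + v) = 0 := by
    intro w χ c a1 a2
    by_contra a3
    have c1 := h.cjc h1 c (χ u)⁻¹
    rw [inv_mul_cancel₀ a1, one_smul] at c1
    obtain ⟨ζ, c2⟩ := h.line D h2 c (D' D c h2 a2) (-1)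
    obtain ⟨ξ, c3⟩ := h.line D c1 c2 (by
      have a4 := D' D c h1 a1
      have a5 := h.inc c
      simp only [map_add, map_smul, LinearMap.sub_apply, LinearMap.smul_apply, smul_eq_mul, e1, a5]
      rw [map_add] at a3
      intro e
      apply a3
      field_simp at e
      have : φ w * (χ u + χ v) = 0 := by linear_combination -e
      exact (mul_eq_zero.mp this).resolve_left a4) 1
    apply hn ξ
    convert c3 using 1
    module
  have cl2' : ∀ {u v φ ψ}, C u φ → C v ψ → φ v = 0 →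
      (∀ w χ, C w χ → χ u ≠ 0 → χ v ≠ 0 → χ (u + v) = 0) →
      ∀ w χ, C w χ → χ v = 0 → χ u = 0 := by
    intro u v φ ψ h1 h2 e1 cl1 w χ c a1
    by_contra a2
    obtain ⟨w', χ', c', b1, b2, b3⟩ : ∃ w' χ', C w' χ' ∧ χ' u ≠ 0 ∧ χ' v ≠ 0 ∧ χ w' ≠ 0 := by
      obtain ⟨w', χ', c', b1, b2⟩ := h.common D h1 h2
      have b1' := D' D h1 c' b1
      have b2' := D' D h2 c' b2
      by_cases b3 : χ w' = 0
      · refine ⟨_, _, h.cjc c' h1 1, ?_, ?_, ?_⟩
        · simpa [h.inc h1] using b1'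
        · simpa [e1] using b2'
        · simpa [b3] using ⟨b1, a2⟩
      · exact ⟨w', χ', c', b1', b2', b3⟩
    have b4 := cl1 _ _ c' b1 b2
    have key : ∀ s : k, s ≠ 0 → χ u - s * χ w' * χ' u = 0 := by
      intro s hs
      by_contra b5
      have := cl1 _ _ (h.cjc c c' s) (by simpa using b5) (by simp [a1, hs, b2, b3])
      rw [LinearMap.sub_apply, LinearMap.smul_apply, b4, smul_zero, sub_zero, map_add, a1,
        add_zero] at this
      exact a2 this
    have k1 := key 1 one_ne_zero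
    have k2 := key (-1) (by simp)
    exact a2 ((mul_eq_zero.mp (show 2 * χ u = 0 by linear_combination k1 + k2)).resolve_left two)
  have e2 := D h1 h2 e1
  have z1 := cl2' h1 h2 e1 cl1
  have z2 := cl2' h2 h1 e2 (fun w χ c a b => by rw [add_comm]; exact cl1 w χ c b a)
  have cl2 : u + v ∈ WC C := by
    intro w χ c
    by_cases a : χ v = 0
    · rw [map_add, a, z1 w χ c a, add_zero]
    · exact cl1 w χ c (fun b => a (z2 w χ c b)) a
  have z3 : ∀ w χ, C w χ → φ w = 0 → ψ w = 0 := fun w χ c a => D c h2 (z2 w χ c (D h1 c a))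
  obtain ⟨w₀, χ₀, c₀, o1, o2⟩ := h.opp h1
  have o3 : ψ w₀ ≠ 0 := fun a => o2 (z1 _ _ c₀ (D h2 c₀ a))
  let f : Dual k V := ψ - (ψ w₀ / φ w₀) • φ
  have sub : ∀ w₁ χ₁ w χ, C w₁ χ₁ → C w χ → χ w₁ ≠ 0 → φ w₁ ≠ 0 → f w₁ = 0 → f w = 0 := by
    intro w₁ χ₁ w χ c1 c a1 a2 a3
    obtain ⟨ζ, c2⟩ := h.line D c c1 a1 (-(φ w / φ w₁))
    have b1 : φ (w + -(φ w / φ w₁) • w₁) = 0 := by simp; field_simp; ring
    have b2 := z3 _ _ c2 b1
    have b3 : f (w + -(φ w / φ w₁) • w₁) = 0 := by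
      simp only [f, LinearMap.sub_apply, LinearMap.smul_apply, b1, b2]; simp
    simpa [a3] using b3
  have f0 : f w₀ = 0 := by simp [f]; field_simp; ring
  have fall : ∀ w χ, C w χ → f w = 0 := by
    intro w χ c
    by_cases a : χ w₀ = 0
    · obtain ⟨w₁, χ₁, c1, b1, b2⟩ := h.common D c₀ c
      have f1 := sub _ _ _ _ c₀ c1 (D' D c₀ c1 b1) o1 f0
      by_cases b : φ w₁ = 0
      · obtain ⟨ζ, c2⟩ := h.line D c1 c₀ (D' D c₀ c1 b1) 1
        exact sub _ _ _ _ c2 c (by simpa [a] using b2) (by simpa [b] using o1) (by simp [f0, f1])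
      · exact sub _ _ _ _ c1 c b2 b f1
    · exact sub _ _ _ _ c₀ c a o1 f0
  have fU : ∀ x ∈ UC C, f x = 0 := by
    intro x hx
    induction hx using Submodule.span_induction with
    | mem x hx => obtain ⟨χ, c⟩ := hx; exact fall x χ c
    | zero => simp
    | add x y _ _ a b => simp [a, b]
    | smul c x _ a => simp [a]
  have c3 := h.smul h2 one_ne_zero (div_ne_zero o1 o3)
  rw [one_smul] at c3
  refine h0 (hO h1 c3 (fun x hx => ?_) cl2)
  have := fU x hx
  simp only [f, LinearMap.sub_apply, LinearMap.smul_apply, smul_eq_mul] at this ⊢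
  field_simp at this ⊢
  linear_combination -this

theorem all_centre {x : V} (hx : x ∈ UC C) : x = 0 ∨ ∃ χ, C x χ := by
  induction hx using Submodule.span_induction with
  | mem x hx => exact Or.inr hx
  | zero => exact Or.inl rfl
  | add x y _ _ a b =>
    rcases a with rfl | ⟨φ, a⟩
    · simpa using b
    rcases b with rfl | ⟨ψ, b⟩
    · exact Or.inr ⟨φ, by simpa using a⟩
    by_cases z : x + y = 0
    · exact Or.inl z
    · exact Or.inr (h.add_centre D two hO a b z)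
  | smul c x _ a =>
    rcases a with rfl | ⟨φ, a⟩
    · simp
    by_cases z : c = 0
    · simp [z]
    · exact Or.inr ⟨_, h.smul a z one_ne_zero⟩

theorem axis_unique {u : V} {φ ψ : Dual k V} (h1 : C u φ) (h2 : C u ψ) : ∃ c : k, ψ = c • φ := by
  obtain ⟨w, χ, c, o1, -⟩ := h.opp h1
  refine ⟨ψ w / φ w, sub_eq_zero.mp (h.eq_zero_of_UC h1
    (h.mc.subr (h.t h2) (h.mc.sr _ (h.t h1))) fun x hx => ?_)⟩
  have m : x - (φ x / φ w) • w ∈ UC C := sub_mem hx (Submodule.smul_mem _ _ (mem_UC c))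
  have b1 : φ (x - (φ x / φ w) • w) = 0 := by simp; field_simp; ring
  have b2 : ψ (x - (φ x / φ w) • w) = 0 := by
    rcases h.all_centre D two hO m with z | ⟨ζ, c2⟩
    · rw [z, map_zero]
    · exact D c2 h2 (D h1 c2 b1)
  simp only [map_sub, map_smul, smul_eq_mul, LinearMap.sub_apply, LinearMap.smul_apply] at b2 ⊢
  field_simp at b2 ⊢
  linear_combination b2

theorem exists_polarity : ∃ Θ : UC C →ₗ[k] Dual k V, (∀ x : UC C, x ≠ 0 → C x (Θ x)) := by
  by_cases hne : ∃ w₀ χ₀, C w₀ χ₀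
  swap
  · push Not at hne
    refine ⟨0, fun x hx => ?_⟩
    rcases h.all_centre D two hO x.2 with z | ⟨χ, c⟩
    · exact absurd (Subtype.ext z) hx
    · exact absurd c (hne _ _)
  obtain ⟨w₀, χ₀, c₀⟩ := hne
  let G : Set (V × Dual k V) := {p | C p.1 p.2 ∧ χ₀ p.1 ≠ 0 ∧ p.2 w₀ = -χ₀ p.1}
  have Gex : ∀ w ∈ UC C, χ₀ w ≠ 0 → ∃ θ, (w, θ) ∈ G := by
    intro w hw a
    obtain ⟨χ, c⟩ := (h.all_centre D two hO hw).resolve_left (by rintro rfl; simp at a)
    have b := D' D c₀ c a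
    have := h.smul c one_ne_zero (b := -χ₀ w / χ w₀) (div_ne_zero (neg_ne_zero.2 a) b)
    rw [one_smul] at this
    exact ⟨_, this, a, by simp; field_simp⟩
  have Gskew : ∀ p ∈ G, ∀ q ∈ G, p.2 q.1 = -q.2 p.1 := by
    rintro ⟨w, θ⟩ ⟨c1, a1, b1⟩ ⟨w', θ'⟩ ⟨c2, a2, b2⟩
    simp only at *
    by_cases e : θ w' = 0
    · rw [e, D c1 c2 e, neg_zero]
    · have e' := D' D c1 c2 e
      have c3 := h.cjc c1 c2 (-χ₀ w / χ₀ w' / θ' w)
      have := D c₀ c3 (by simp; field_simp; ring)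
      simp only [LinearMap.sub_apply, LinearMap.smul_apply, smul_eq_mul, b1, b2] at this
      field_simp at this
      have h2 : χ₀ w * (θ w' + θ' w) = 0 := by linear_combination -this
      linear_combination (mul_eq_zero.mp h2).resolve_left a1
  let Γ : Submodule k (V × Dual k V) := Submodule.span k G
  have skew : ∀ p ∈ Γ, ∀ q ∈ Γ, p.2 q.1 = -q.2 p.1 := by
    intro p hp q hq
    induction hp, hq using Submodule.span_induction₂ with
    | mem_mem p q hp hq => exact Gskew p hp q hq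
    | zero_left => simp
    | zero_right => simp
    | add_left x y z _ _ _ a b => simp [a, b, add_comm]
    | add_right x y z _ _ _ a b => simp [a, b, add_comm]
    | smul_left c x y _ _ a => simp [a]
    | smul_right c x y _ _ a => simp [a]
  have addopp : ∀ p ∈ Γ, ∀ q ∈ Γ, C p.1 p.2 → C q.1 q.2 → p.2 q.1 ≠ 0 →
      C (p.1 + q.1) (p.2 + q.2) := by
    intro p hp q hq c1 c2 e
    have e' := D' D c1 c2 e
    have := h.cjc c1 c2 (q.2 p.1)⁻¹
    rw [inv_mul_cancel₀ e', one_smul, skew p hp q hq, mul_neg, inv_mul_cancel₀ e'] at this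
    convert this using 1
    module
  have Γex : ∀ u ∈ UC C, u ≠ 0 → ∃ α, (u, α) ∈ Γ ∧ C u α := by
    intro u hu u0
    by_cases a : χ₀ u = 0
    · obtain ⟨φ, c⟩ := (h.all_centre D two hO hu).resolve_left u0
      obtain ⟨w, χ, c1, b1, b2⟩ := h.common D c c₀
      obtain ⟨θ, g1⟩ := Gex w (mem_UC c1) b2
      obtain ⟨θ', g2⟩ := Gex (u + w) (add_mem hu (mem_UC c1)) (by simpa [a] using b2)
      have m1 : -(w, θ) ∈ Γ := neg_mem (Submodule.subset_span g1)
      have m2 : (u + w, θ') ∈ Γ := Submodule.subset_span g2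
      have c2 : C (-(w, θ)).1 (-(w, θ)).2 := h.neg g1.1
      have := addopp _ m1 _ m2 c2 g2.1 (by simpa [h.inc g1.1] using D' D c g1.1 b1)
      refine ⟨-θ + θ', ?_, by simpa using this⟩
      have m3 := add_mem m1 m2
      simpa using m3
    · obtain ⟨θ, g⟩ := Gex u hu a
      exact ⟨θ, Submodule.subset_span g, g.1⟩
  have ΓC : ∀ p ∈ Γ, p = 0 ∨ C p.1 p.2 := by
    intro p hp
    induction hp using Submodule.span_induction with
    | mem p hp => exact Or.inr hp.1
    | zero => exact Or.inl rfl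
    | smul c p _ a =>
      rcases a with rfl | a
      · simp
      by_cases z : c = 0
      · simp [z]
      · exact Or.inr (h.smul a z z)
    | add p q hp hq a b =>
      rcases a with rfl | a
      · simpa using b
      rcases b with rfl | b
      · simpa using Or.inr a
      by_cases e : p.2 q.1 = 0
      swap
      · exact Or.inr (addopp p hp q hq a b e)
      have hs : ∀ x ∈ UC C, x ≠ 0 → ∃ α, C x α ∧ (p.2 + q.2) x = -α (p.1 + q.1) := by
        intro x hx x0
        obtain ⟨α, m, c⟩ := Γex x hx x0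
        exact ⟨α, c, skew _ (add_mem hp hq) _ m⟩
      by_cases z : p.1 + q.1 = 0
      · left
        refine Prod.ext z (h.eq_zero_of_UC a (h.mc.ar (h.t a) ?_) fun x hx => ?_)
        · have := h.mc.sl (-1) (h.t b)
          rwa [neg_one_smul, neg_eq_of_add_eq_zero_left z] at this
        · by_cases x0 : x = 0
          · rw [x0, map_zero]
          · obtain ⟨α, -, e1⟩ := hs x hx x0
            exact e1.trans (by rw [z, map_zero, neg_zero])
      · right
        obtain ⟨ξ, c1⟩ := h.add_centre D two hO a b z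
        obtain ⟨y1, η1, d1, o1, -⟩ := h.opp a
        obtain ⟨y2, η2, d2, o2, -⟩ := h.opp b
        obtain ⟨y3, η3, d3, o3, -⟩ := h.opp c1
        obtain ⟨α3, d4, e3⟩ := hs y3 (mem_UC d3) (h.n1 d3)
        obtain ⟨w, hw, f1, f2, f3⟩ := exists_ne_three two (mem_UC d1) (mem_UC d2) (mem_UC d3) o1 o2
          (l := p.2 + q.2) (by rw [e3]; exact neg_ne_zero.2 (D' D c1 d4 o3))
        obtain ⟨ω, m, c⟩ := Γex w hw (by rintro rfl; simp at f1)
        have cn : C (-(w, ω)).1 (-(w, ω)).2 := h.neg c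
        have s1 := addopp p hp _ m a c f1
        have s2 := addopp q hq _ (neg_mem m) b cn (by simpa using f2)
        have s3 := addopp _ (add_mem hp m) _ (add_mem hq (neg_mem m)) s1 s2 (by
          have k1 : ω q.1 = -q.2 w := skew _ m q hq
          simp only [Prod.fst_add, Prod.snd_add, Prod.fst_neg, map_add, map_neg, LinearMap.add_apply,
            e, k1, h.inc c] at f3 ⊢
          intro e4; apply f3; linear_combination -e4)
        convert s3 using 1 <;> simp <;> abel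
  have uniq : ∀ u α β, (u, α) ∈ Γ → (u, β) ∈ Γ → α = β := by
    intro u α β m1 m2
    rcases ΓC _ (sub_mem m1 m2) with z | c
    · exact sub_eq_zero.mp (congrArg Prod.snd z)
    · exact absurd (sub_self u) (h.n1 c)
  have ex : ∀ x : UC C, ∃ α, ((x : V), α) ∈ Γ := by
    intro x
    by_cases z : (x : V) = 0
    · exact ⟨0, by rw [z]; exact zero_mem Γ⟩
    · obtain ⟨α, m, -⟩ := Γex x x.2 z
      exact ⟨α, m⟩
  choose θ hθ using ex
  refine ⟨{ toFun := θ
            map_add' := fun x y => uniq _ _ _ (hθ (x + y)) (add_mem (hθ x) (hθ y))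
            map_smul' := fun c x => uniq _ _ _ (hθ (c • x)) (Γ.smul_mem c (hθ x)) }, fun x hx => ?_⟩
  exact (ΓC _ (hθ x)).resolve_left fun z => hx (Subtype.ext (congrArg Prod.fst z))

/-- the symplectic case -/
theorem sp_case [FiniteDimensional k V] : IsCompl (UC C) (WC C) ∧
    ∃ B : LinearMap.BilinForm k (UC C), B.IsAlt ∧ B.Nondegenerate ∧
      (∀ u φ (c : C u φ), ∃ a : k, ∀ x : UC C, φ x = a * B x ⟨u, mem_UC c⟩) ∧
      ∀ y : UC C, y ≠ 0 → ∃ φ, C y φ ∧ ∀ x : UC C, φ x = B x y := by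
  obtain ⟨Θ, hΘ⟩ := h.exists_polarity D two hO
  let B : LinearMap.BilinForm k (UC C) := ((UC C).subtype.dualMap ∘ₗ Θ).flip
  have hB : ∀ x y : UC C, B x y = Θ y x := fun x y => rfl
  have alt : B.IsAlt := by
    intro x
    by_cases z : x = 0
    · simp [z]
    · exact h.inc (hΘ x z)
  have nd : B.Nondegenerate := by
    have : ∀ y : UC C, (∀ x, B x y = 0) → y = 0 := by
      intro y hy
      by_contra z
      obtain ⟨v, ψ, c, o, -⟩ := h.opp (hΘ y z)
      exact o (hy ⟨v, mem_UC c⟩)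
    exact ⟨fun x hx => this x fun y => alt.isRefl _ _ (hx y), this⟩
  have pr : ∀ u φ (c : C u φ), ∃ a : k, φ = a • Θ ⟨u, mem_UC c⟩ := fun u φ c =>
    h.axis_unique D two hO (hΘ ⟨u, mem_UC c⟩ fun z => h.n1 c (congrArg Subtype.val z)) c
  refine ⟨⟨?_, ?_⟩, B, alt, nd, fun u φ c => ?_, fun y hy => ⟨_, hΘ y hy, fun x => rfl⟩⟩
  · rw [Submodule.disjoint_def]
    intro x a b
    rcases h.all_centre D two hO a with z | ⟨χ, c⟩
    · exact z
    · obtain ⟨v, ψ, c2, -, o⟩ := h.opp c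
      exact absurd (b v ψ c2) o
  · rw [codisjoint_iff, eq_top_iff]
    intro y _
    obtain ⟨x, hx⟩ := (B.toDual nd).surjective (Θ.flip y)
    have : y = x + (y - x) := by abel
    rw [this]
    refine Submodule.add_mem_sup x.2 fun u φ c => ?_
    obtain ⟨a, e⟩ := pr u φ c
    have := DFunLike.congr_fun hx ⟨u, mem_UC c⟩
    simp only [LinearMap.BilinForm.toDual_def, LinearMap.flip_apply, hB] at this
    generalize Θ ⟨u, mem_UC c⟩ = α at e this
    rw [e]
    simp [this]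
  · obtain ⟨a, e⟩ := pr u φ c
    exact ⟨a, fun x => by rw [hB]; nth_rewrite 1 [e]; rfl⟩

end Sp

end Cp

end Cfsg.Agent.Root
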