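import Mathlib
import Cfsg.Agent.Root.Mc2
import Cfsg.Agent.Root.RI1
import Cfsg.Agent.Classical.SLBasic
import Cfsg.Agent.Classical.SpWitt

/-! McLaughlin's theorem: the group theoretic part. -/

namespace Cfsg.Agent.Root

open Module Subgroup

variable {k V : Type*} [Field k] [AddCommGroup V] [Module k V]

/-- the transvection -/
def tr {u : V} {φ : Dual k V} (h : φ u = 0) : V ≃ₗ[k] V := LinearEquiv.transvection h

theorem tr_apply {u : V} {φ : Dual k V} (h : φ u = 0) (x : V) : tr h x = x + φ x • u := rfl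

theorem sl_gen [FiniteDimensional k V] (K : Subgroup (V ≃ₗ[k] V))
    (hK : ∀ (u : V) (φ : Dual k V) (h : φ u = 0), tr h ∈ K) (f : V ≃ₗ[k] V)
    (hf : LinearMap.det (f : V →ₗ[k] V) = 1) : f ∈ K := by
  let b := Module.finBasis k V
  let e := Matrix.SpecialLinearGroup.toLin_equiv b
  let j := (SpecialLinearGroup.toLinearEquiv (R := k) (V := V)).comp e.toMonoidHom
  have top : K.comap j = ⊤ := by
    apply Classical.SLBasic.eq_top_of_transvection_mem
    intro i l hil c
    have h0 : (c • b.coord l) (b i) = 0 := by simp [Finsupp.single_eq_of_ne hil.symm]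
    have : j (Matrix.SpecialLinearGroup.transvection hil c) = tr h0 := by
      apply LinearEquiv.toLinearMap_injective
      apply b.ext
      intro m
      show Matrix.toLin b b (Matrix.transvection i l c) (b m) = b m + (c • b.coord l) (b m) • b i
      rw [Matrix.toLin_self]
      simp only [Matrix.transvection, Matrix.add_apply, add_smul, Finset.sum_add_distrib,
        Matrix.one_apply, Matrix.single_apply]
      by_cases e : l = m
      · subst e; simp
      · simp [e, Finsupp.single_eq_of_ne e]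
    rw [mem_comap, this]; exact hK _ _ _
  have hd : f.det = 1 := by
    rw [← Units.val_inj, LinearEquiv.coe_det]; exact hf
  obtain ⟨A, hA⟩ := e.surjective ⟨f, hd⟩
  have : A ∈ K.comap j := top ▸ mem_top A
  rw [mem_comap] at this
  have e2 : j A = f := congrArg Subtype.val hA
  rwa [e2] at this

/-- the stabiliser of a subspace -/
def Stb (A : Submodule k V) : Subgroup (V ≃ₗ[k] V) where
  carrier := {g | ∀ x, g x ∈ A ↔ x ∈ A}
  one_mem' := fun _ => Iff.rfl
  mul_mem' := fun {a b} ha hb x => (ha (b x)).trans (hb x)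
  inv_mem' := fun {a} ha x => by
    rw [← ha]; exact Iff.of_eq (congrArg (· ∈ A) (a.apply_symm_apply x))

theorem tr_mem_Stb {A : Submodule k V} {u : V} {φ : Dual k V} (h : φ u = 0)
    (hA : ∀ x ∈ A, φ x ≠ 0 → u ∈ A) : tr h ∈ Stb A := by
  intro x
  rw [tr_apply]
  by_cases e : φ x = 0
  · simp [e]
  constructor
  · intro m
    have := sub_mem m (A.smul_mem (φ x) (hA _ m (by simpa [h] using e)))
    simpa using this
  · intro m
    exact add_mem m (A.smul_mem _ (hA x m e))

/-- the pointwise stabiliser of a subspace -/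
def Fxs (A : Submodule k V) : Subgroup (V ≃ₗ[k] V) where
  carrier := {g | ∀ x ∈ A, g x = x}
  one_mem' := fun _ _ => rfl
  mul_mem' := fun {a b} ha hb x hx => by
    show a (b x) = x
    rw [hb x hx, ha x hx]
  inv_mem' := fun {a} ha x hx => by
    show a.symm x = x
    rw [LinearEquiv.symm_apply_eq, ha x hx]

/-- the stabiliser of a chain `V ≥ A ≥ B ≥ 0` -/
def St3 (A B : Submodule k V) : Subgroup (V ≃ₗ[k] V) where
  carrier := {g | (∀ x, g x - x ∈ A) ∧ (∀ x ∈ A, g x - x ∈ B) ∧ (∀ x ∈ B, g x = x)}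
  one_mem' := ⟨fun x => by simp, fun x _ => by simp, fun _ _ => rfl⟩
  mul_mem' := by
    rintro a b ⟨a1, a2, a3⟩ ⟨b1, b2, b3⟩
    refine ⟨fun x => ?_, fun x hx => ?_, fun x hx => ?_⟩
    · have := add_mem (a1 (b x)) (b1 x)
      simpa using this
    · have e : a (b x) - x = (a x - x) + a (b x - x) := by simp
      show a (b x) - x ∈ B
      rw [e, a3 _ (b2 x hx)]
      exact add_mem (a2 x hx) (b2 x hx)
    · show a (b x) = x
      rw [b3 x hx, a3 x hx]
  inv_mem' := by
    rintro a ⟨a1, a2, a3⟩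
    refine ⟨fun x => ?_, fun x hx => ?_, fun x hx => ?_⟩
    · have := neg_mem (a1 (a.symm x))
      simpa using this
    · have m := a2 x hx
      have e : a.symm (a x - x) = a x - x := by rw [LinearEquiv.symm_apply_eq, a3 _ m]
      have e2 : a.symm x - x = -(a x - x) := by rw [← e]; simp
      show a.symm x - x ∈ B
      rw [e2]; exact neg_mem m
    · show a.symm x = x
      rw [LinearEquiv.symm_apply_eq, a3 x hx]

theorem isPGroup_St3 {p : ℕ} [Fact p.Prime] [CharP k p] (hp : Odd p) (A B : Submodule k V) :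
    IsPGroup p (St3 A B) := by
  rintro ⟨g, a1, a2, a3⟩
  refine ⟨1, Subtype.ext ?_⟩
  have key : ∀ (n : ℕ) (x : V), (g ^ n) x = x + (n : k) • (g x - x) +
      (n.choose 2 : k) • (g (g x - x) - (g x - x)) := by
    intro n x
    induction n with
    | zero => simp
    | succ n ih =>
      rw [pow_succ', LinearEquiv.mul_apply, ih, map_add, map_add, map_smul, map_smul,
        a3 _ (a2 _ (a1 x)), Nat.choose_succ_succ', Nat.choose_one_right]
      push_cast
      module
  ext x
  have h2 : 2 < p := by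
    have := (Fact.out : p.Prime).two_le
    obtain ⟨m, rfl⟩ := hp
    omega
  have c1 : (p : k) = 0 := CharP.cast_eq_zero k p
  have c2 : ((p.choose 2 : ℕ) : k) = 0 :=
    (CharP.cast_eq_zero_iff k p _).2 ((Fact.out : p.Prime).dvd_choose_self two_ne_zero h2)
  simp only [pow_one, Subgroup.coe_pow, OneMemClass.coe_one]
  rw [key, c1, c2]; simp

theorem conj_mem_St3 {A B : Submodule k V} {g n : V ≃ₗ[k] V} (hA : g ∈ Stb A) (hB : g ∈ Stb B)
    (hn : n ∈ St3 A B) : g * n * g⁻¹ ∈ St3 A B := by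
  obtain ⟨a1, a2, a3⟩ := hn
  have e : ∀ x, (g * n * g⁻¹) x - x = g (n (g.symm x) - g.symm x) := fun x => by simp
  refine ⟨fun x => ?_, fun x hx => ?_, fun x hx => ?_⟩
  · rw [e, hA]; exact a1 _
  · rw [e, hB]; exact a2 _ ((inv_mem hA x).2 hx)
  · rw [← sub_eq_zero, e, a3 (g.symm x) ((inv_mem hB x).2 hx)]; simp

/-- the centre-axis pairs of the transvections in `H` -/
def TTr (H : Subgroup (V ≃ₗ[k] V)) (u : V) (φ : Dual k V) : Prop := ∃ h : φ u = 0, tr h ∈ H

theorem conj_tr (g : V ≃ₗ[k] V) {u : V} {φ : Dual k V} (h : φ u = 0) :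
    g * tr h * g⁻¹ = tr (u := g u) (φ := φ ∘ₗ g.symm.toLinearMap) (by simp [h]) := by
  ext x
  show g (g.symm x + φ (g.symm x) • u) = _
  simp [tr_apply]

theorem eq_one_of_St3 {p : ℕ} [Fact p.Prime] [CharP k p] (hp : Odd p) {H : Subgroup (V ≃ₗ[k] V)}
    (hO : pCore p H = ⊥) {A B : Submodule k V} (hA : H ≤ Stb A) (hB : H ≤ Stb B) {g : V ≃ₗ[k] V}
    (hg : g ∈ H) (hg' : g ∈ St3 A B) : g = 1 := by
  have h1 : ((St3 A B).subgroupOf H).Normal :=
    ⟨fun n hn x => conj_mem_St3 (hA x.2) (hB x.2) hn⟩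
  have h2 : IsPGroup p ((St3 A B).subgroupOf H) :=
    (isPGroup_St3 hp A B).comap_of_injective _ H.subtype_injective
  have h3 : (St3 A B).subgroupOf H ≤ pCore p H := le_sSup ⟨h1, h2⟩
  have : (⟨g, hg⟩ : H) ∈ pCore p H := h3 hg'
  rw [hO] at this
  exact congrArg Subtype.val this

theorem tr_pair_St3 {u v : V} {φ ψ : Dual k V} (h : φ u = 0) (h' : ψ v = 0) (e : ψ u = 0) :
    ∃ A B : Submodule k V, tr h ∈ St3 A B ∧ tr h' ∈ St3 A B := by
  have mu : u ∈ Submodule.span k {u, v} := Submodule.subset_span (by simp)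
  have mv : v ∈ Submodule.span k {u, v} := Submodule.subset_span (by simp)
  refine ⟨Submodule.span k {u, v}, Submodule.span k {u}, ⟨fun x => ?_, fun x _ => ?_, fun x hx => ?_⟩,
    ⟨fun x => ?_, fun x hx => ?_, fun x hx => ?_⟩⟩
  · simpa [tr_apply] using Submodule.smul_mem _ _ mu
  · simpa [tr_apply] using Submodule.smul_mem _ _ (Submodule.mem_span_singleton_self u)
  · obtain ⟨c, rfl⟩ := Submodule.mem_span_singleton.1 hx
    simp [tr_apply, h]
  · simpa [tr_apply] using Submodule.smul_mem _ _ mv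
  · obtain ⟨a, b, rfl⟩ := Submodule.mem_span_pair.1 hx
    simp [tr_apply, h', e]
  · obtain ⟨c, rfl⟩ := Submodule.mem_span_singleton.1 hx
    simp [tr_apply, e]

theorem tr_ne_one {u : V} {φ : Dual k V} (h : φ u = 0) (hu : u ≠ 0) (hφ : φ ≠ 0) : tr h ≠ 1 := by
  obtain ⟨y, hy⟩ := DFunLike.ne_iff.mp hφ
  intro e
  have := DFunLike.congr_fun e y
  simp only [tr_apply, LinearEquiv.coe_one, id_eq, add_eq_left, smul_eq_zero] at this
  exact this.elim hy hu

theorem mc_TTr {p : ℕ} [Fact p.Prime] [CharP k p] (hp : Odd p) {H : Subgroup (V ≃ₗ[k] V)}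
    [Finite H] (hO : pCore p H = ⊥) (hs : ∀ u φ (c : k), TTr H u φ → TTr H (c • u) φ) :
    Mc (TTr H) where
  inc := fun h => h.1
  zl := fun φ => ⟨map_zero φ, by
    have : tr (map_zero φ) = 1 := by ext; simp [tr_apply]
    rw [this]; exact one_mem _⟩
  zr := fun u => ⟨rfl, by
    have : tr (k := k) (u := u) (φ := 0) rfl = 1 := by ext; simp [tr_apply]
    rw [this]; exact one_mem _⟩
  sl := fun c h => hs _ _ c h
  sr := fun {u φ} c h => by
    obtain ⟨h1, h2⟩ := hs _ _ c h
    refine ⟨by simp [h.1], ?_⟩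
    convert h2 using 1
    ext; simp [tr_apply, smul_smul, mul_comm]
  al := fun {u v φ} ⟨h1, m1⟩ ⟨h2, m2⟩ => ⟨by simp [h1, h2], by
    convert mul_mem m1 m2 using 1
    ext x; simp [tr_apply, h2]; abel⟩
  ar := fun {u φ ψ} ⟨h1, m1⟩ ⟨h2, m2⟩ => ⟨by simp [h1, h2], by
    convert mul_mem m1 m2 using 1
    ext x; simp [tr_apply, h1, add_smul]; abel⟩
  cj := fun {u φ v ψ} ⟨h1, m1⟩ ⟨h2, m2⟩ => ⟨by simp [h1, h2, mul_comm], by
    have := mul_mem (mul_mem m2 m1) (inv_mem m2)
    rw [conj_tr] at this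
    convert this using 1
    ext x
    have e : (tr h2).symm x = x + ψ x • (-v) := rfl
    simp [tr_apply, e, mul_comm, sub_eq_add_neg]⟩
  opp := fun {u φ} ⟨h1, m1⟩ hu hφ => by
    by_contra hn
    push Not at hn
    have : (⟨tr h1, m1⟩ : H) ∈ pCore p H := by
      apply H2.baer_suzuki_elem
      rintro ⟨g, hg⟩
      have m2 := mul_mem (mul_mem hg m1) (inv_mem hg)
      rw [conj_tr] at m2
      obtain ⟨A, B, a, b⟩ : ∃ A B : Submodule k V, tr h1 ∈ St3 A B ∧ g * tr h1 * g⁻¹ ∈ St3 A B := by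
        rw [conj_tr]
        by_cases e : φ (g u) = 0
        · obtain ⟨A, B, a, b⟩ := tr_pair_St3 (u := g u) (φ := φ ∘ₗ g.symm.toLinearMap)
            (by simp [h1]) h1 e
          exact ⟨A, B, b, a⟩
        · exact tr_pair_St3 h1 _ (hn _ _ ⟨_, m2⟩ e)
      have h2 : IsPGroup p ((St3 A B).subgroupOf H) :=
        (isPGroup_St3 hp A B).comap_of_injective _ H.subtype_injective
      apply h2.to_le
      rw [closure_le]
      rintro x (rfl | rfl)
      · exact a
      · exact b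
    rw [hO] at this
    exact tr_ne_one h1 hu hφ (congrArg Subtype.val this)

/-- the group generated by the transvections of a component -/
def KC (C : V → Dual k V → Prop) : Subgroup (V ≃ₗ[k] V) :=
  closure {g | ∃ u φ, ∃ h : φ u = 0, C u φ ∧ g = tr h}

/-- restriction to an invariant subspace -/
def resE (A : Submodule k V) (K : Subgroup (V ≃ₗ[k] V)) (hK : K ≤ Stb A) : K →* (A ≃ₗ[k] A) where
  toFun g :=
    { toFun := fun x => ⟨g.1 x, (hK g.2 x).2 x.2⟩
      invFun := fun x => ⟨g.1.symm x, (hK (inv_mem g.2) x).2 x.2⟩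
      map_add' := fun x y => Subtype.ext (by simp)
      map_smul' := fun c x => Subtype.ext (by simp)
      left_inv := fun x => Subtype.ext (by simp)
      right_inv := fun x => Subtype.ext (by simp) }
  map_one' := rfl
  map_mul' _ _ := rfl

theorem range_resE {A : Submodule k V} {C : V → Dual k V → Prop} (hK : KC C ≤ Stb A)
    (L : Subgroup (A ≃ₗ[k] A))
    (hL : ∀ u φ (h : φ u = 0) (c : C u φ), resE A (KC C) hK ⟨tr h, subset_closure ⟨u, φ, h, c, rfl⟩⟩ ∈ L) :
    (resE A (KC C) hK).range ≤ L := by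
  rintro _ ⟨⟨g, hg⟩, rfl⟩
  induction hg using closure_induction with
  | mem g hg => obtain ⟨u, φ, h, c, rfl⟩ := hg; exact hL u φ h c
  | one => exact (map_one (resE A (KC C) hK)).symm ▸ one_mem L
  | mul x y hx hy a b => exact (map_mul (resE A (KC C) hK) ⟨x, hx⟩ ⟨y, hy⟩).symm ▸ mul_mem a b
  | inv x hx a => exact (map_inv (resE A (KC C) hK) ⟨x, hx⟩).symm ▸ inv_mem a

namespace Cp

variable {T C : V → Dual k V → Prop} (h : Cp T C)
include h

theorem tr_Stb_UC {v : V} {ψ : Dual k V} (t : T v ψ) : tr (h.mc.inc t) ∈ Stb (UC C) := by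
  apply tr_mem_Stb
  intro x hx e
  by_cases v0 : v = 0
  · rw [v0]; exact zero_mem _
  have : ∃ u φ, C u φ ∧ ψ u ≠ 0 := by
    by_contra hn
    push Not at hn
    have : UC C ≤ LinearMap.ker ψ := Submodule.span_le.2 (by rintro x ⟨φ, c⟩; exact hn x φ c)
    exact e (this hx)
  obtain ⟨u, φ, c, o⟩ := this
  exact mem_UC (h.cl c t v0 (by rintro rfl; simp at o) (Or.inr o))

theorem tr_Stb_WC {v : V} {ψ : Dual k V} (t : T v ψ) : tr (h.mc.inc t) ∈ Stb (WC C) := by
  apply tr_mem_Stb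
  intro x hx e u φ c
  by_contra o
  exact e (hx v ψ (h.cl c t (by rintro rfl; simp at o) (by rintro rfl; simp at e) (Or.inl o)))

theorem KC_le_Stb : KC C ≤ Stb (UC C) := by
  rw [KC, closure_le]
  rintro _ ⟨u, φ, -, c, rfl⟩
  exact h.tr_Stb_UC (h.t c)

omit h in
theorem KC_le_Fxs : KC C ≤ Fxs (WC C) := by
  rw [KC, closure_le]
  rintro _ ⟨u, φ, _, c, rfl⟩ x hx
  rw [tr_apply, hx u φ c]; simp

theorem structure_thm [FiniteDimensional k V] (two : (2 : k) ≠ 0)
    (hO : ∀ {u φ v ψ}, C u φ → C v ψ → (∀ x ∈ UC C, φ x = ψ x) → u + v ∈ WC C → u + v = 0) :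
    IsCompl (UC C) (WC C) ∧
      (((resE (UC C) (KC C) h.KC_le_Stb).range : Set (UC C ≃ₗ[k] UC C)) =
          {f : UC C ≃ₗ[k] UC C | LinearMap.det (f : UC C →ₗ[k] UC C) = 1} ∨
        ∃ B : LinearMap.BilinForm k (UC C), B.IsAlt ∧ B.Nondegenerate ∧
          ((resE (UC C) (KC C) h.KC_le_Stb).range : Set (UC C ≃ₗ[k] UC C)) =
            {f : UC C ≃ₗ[k] UC C | ∀ x y, B (f x) (f y) = B x y}) := by
  by_cases D : ∀ {u φ v ψ}, C u φ → C v ψ → φ v = 0 → ψ u = 0
  · obtain ⟨hc, B, alt, nd, p1, p2⟩ := h.sp_case D two hO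
    refine ⟨hc, Or.inr ⟨B, alt, nd, ?_⟩⟩
    show _ = (Classical.SpWitt.SG B : Set (UC C ≃ₗ[k] UC C))
    congr 1
    apply le_antisymm
    · apply range_resE
      intro u φ e c
      obtain ⟨a, ha⟩ := p1 u φ c
      convert (Classical.SpWitt.tv alt ⟨u, mem_UC c⟩ a).2 using 1
      ext x
      rw [Classical.SpWitt.tv_apply, ← ha]
      rfl
    · have := Classical.SpWitt.eq_top_of_tv nd alt
        ((resE (UC C) (KC C) h.KC_le_Stb).range.subgroupOf (Classical.SpWitt.SG B)) (by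
          intro y c
          by_cases y0 : y = 0
          · rw [y0, Classical.SpWitt.tv_zero_vec]; exact one_mem _
          by_cases c0 : c = 0
          · rw [c0, Classical.SpWitt.tv_zero]; exact one_mem _
          obtain ⟨φ, m, e⟩ := p2 y y0
          have m2 := h.smul m one_ne_zero c0
          rw [one_smul] at m2
          refine ⟨⟨tr (h.inc m2), subset_closure ⟨_, _, _, m2, rfl⟩⟩, ?_⟩
          ext x
          show (x : V) + (c • φ) x • (y : V) = ((Classical.SpWitt.tv alt y c).1 x : V)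
          rw [Classical.SpWitt.tv_apply, ← e]
          rfl)
      exact subgroupOf_eq_top.1 this
  · push Not at D
    obtain ⟨u, φ, v, ψ, c1, c2, e1, e2⟩ := D
    obtain ⟨hc, full⟩ := h.lin_case c2 c1 e2 e1
    refine ⟨hc, Or.inl (Set.Subset.antisymm ?_ ?_)⟩
    · have : (resE (UC C) (KC C) h.KC_le_Stb).range ≤ (LinearEquiv.det (R := k) (M := UC C)).ker := by
        apply range_resE
        intro u φ e c
        have : resE (UC C) (KC C) h.KC_le_Stb ⟨tr e, subset_closure ⟨u, φ, e, c, rfl⟩⟩ =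
            LinearEquiv.transvection (f := φ ∘ₗ (UC C).subtype) (v := ⟨u, mem_UC c⟩) e := by
          ext x; rfl
        rw [this, MonoidHom.mem_ker]
        exact LinearEquiv.transvection.det_eq_one _
      intro f hf
      have := congrArg Units.val (MonoidHom.mem_ker.1 (this hf))
      rwa [LinearEquiv.coe_det] at this
    · intro f hf
      refine sl_gen _ (fun x η e => ?_) f hf
      by_cases x0 : x = 0
      · have : tr e = 1 := by ext; simp [tr_apply, x0]
        rw [this]; exact one_mem _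
      by_cases η0 : η = 0
      · have : tr e = 1 := by ext; simp [tr_apply, η0]
        rw [this]; exact one_mem _
      let η' : Dual k V := η ∘ₗ (UC C).projectionOnto (WC C) hc
      have r1 : ∀ y : UC C, η' y = η y := fun y => by simp [η']
      have t := full x x.2 η' (fun y hy => by
        simp [η', (Submodule.projectionOnto_apply_eq_zero_iff hc).2 hy]) (by rw [r1, e])
      obtain ⟨y, hy⟩ := DFunLike.ne_iff.mp η0
      have m : C x η' := by
        by_contra hn
        have : UC C ≤ LinearMap.ker η' := Submodule.span_le.2 (by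
          rintro w ⟨χ, c⟩
          by_contra o
          exact hn (h.cl c t (fun z => x0 (Subtype.ext z)) (fun z => o (by simp [z])) (Or.inr o)))
        exact hy ((r1 y).symm.trans (this y.2))
      refine ⟨⟨tr (h.inc m), subset_closure ⟨_, _, _, m, rfl⟩⟩, ?_⟩
      ext z
      show (z : V) + η' z • (x : V) = _
      rw [r1]; rfl

end Cp

/-- adjacency in the non-commuting graph -/
def McAdj (T : V → Dual k V → Prop) (p q : V × Dual k V) : Prop :=
  T q.1 q.2 ∧ q.1 ≠ 0 ∧ q.2 ≠ 0 ∧ (p.2 q.1 ≠ 0 ∨ q.2 p.1 ≠ 0)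

/-- the component of a pair; empty for a degenerate pair -/
def McCp (T : V → Dual k V → Prop) (p : V × Dual k V) (v : V) (ψ : Dual k V) : Prop :=
  T p.1 p.2 ∧ p.1 ≠ 0 ∧ p.2 ≠ 0 ∧ Relation.ReflTransGen (McAdj T) p (v, ψ)

theorem cp_McCp {T : V → Dual k V → Prop} (h : Mc T) (p : V × Dual k V) : Cp T (McCp T p) := by
  have key : ∀ {q : V × Dual k V}, McCp T p q.1 q.2 → T q.1 q.2 ∧ q.1 ≠ 0 ∧ q.2 ≠ 0 := by
    rintro q ⟨a, b, c, d⟩
    rcases Relation.ReflTransGen.cases_tail d with e | ⟨r, -, e⟩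
    · rw [show q = p from e]; exact ⟨a, b, c⟩
    · exact ⟨e.1, e.2.1, e.2.2.1⟩
  refine ⟨h, fun {u φ} c => (key (q := (u, φ)) c).1, fun {u φ} c => (key (q := (u, φ)) c).2.1,
    fun {u φ} c => (key (q := (u, φ)) c).2.2,
    fun c t a b o => ⟨c.1, c.2.1, c.2.2.1, c.2.2.2.tail ⟨t, a, b, o⟩⟩, ?_⟩
  intro P u φ c0 p0 step v ψ c
  have fw : P p.1 p.2 → ∀ q, Relation.ReflTransGen (McAdj T) p q → P q.1 q.2 := by
    intro pp q r
    induction r with
    | refl => exact pp
    | tail r a ih =>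
      exact step _ _ _ _ ⟨c.1, c.2.1, c.2.2.1, r⟩ ⟨c.1, c.2.1, c.2.2.1, r.tail a⟩ a.2.2.2 ih
  have bw : ∀ q, Relation.ReflTransGen (McAdj T) p q → P q.1 q.2 → P p.1 p.2 := by
    intro q r
    induction r with
    | refl => exact id
    | tail r a ih =>
      exact fun pp => ih
        (step _ _ _ _ ⟨c.1, c.2.1, c.2.2.1, r.tail a⟩ ⟨c.1, c.2.1, c.2.2.1, r⟩ a.2.2.2.symm pp)
  exact fw (bw _ c0.2.2.2 p0) _ c.2.2.2

theorem Cp.eq_of_mem {T C C' : V → Dual k V → Prop} (h : Cp T C) (h' : Cp T C') {u : V}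
    {φ : Dual k V} (c : C u φ) (c' : C' u φ) : C = C' := by
  ext v ψ
  exact ⟨fun a => h.ind C' c c' (fun _ _ _ _ _ b o d => h'.cl d (h.t b) (h.n1 b) (h.n2 b) o) a,
    fun a => h'.ind C c' c (fun _ _ _ _ _ b o d => h.cl d (h'.t b) (h'.n1 b) (h'.n2 b) o) a⟩

theorem Cp.UC_le_WC {T C C' : V → Dual k V → Prop} (h : Cp T C) (h' : Cp T C') (hne : C ≠ C') :
    UC C ≤ WC C' := by
  rw [UC, Submodule.span_le]
  rintro u ⟨φ, c⟩ v ψ c'
  by_contra o
  exact hne (h.eq_of_mem h' c (h'.cl c' (h.t c) (h.n1 c) (h.n2 c) (Or.inl o)))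

end Cfsg.Agent.Root
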